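import Mathlib
import Cfsg.Agent.H125.Hall.E6Base

/-!
# S2223, the row `E₆(q)`, `q ≡ 3 mod 8` (helper541, task HALLPRO2 E-8)

`y = Ph k X · D` with `D = h_0(-1) h_4(-1) h_5(-1)` (`k = 0, 1`), `D = h_1(-1) h_4(-1)` (`k = 2, 3`),
`X = (s/2) [[1,-1],[-1,-1]]`, `s² = -2`: `y² = Ph k J`, `J = [[0,-1],[1,0]]`, and
`(y² - 1)(y² - c s y - 1) = -2 θ(J) Δ` with a diagonal matrix `Δ` with two nonzero entries.
-/

set_option autoImplicit false

namespace Cfsg.Agent.H541.Hall.E6Three

open Cfsg.Lie Cfsg.Agent.ChevalleyStructure.E6Min.Tables Cfsg.Agent.ChevalleyStructure.E6Min.Basic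
  Cfsg.Agent.ChevalleyStructure.E6Min.Torus Cfsg.Agent.ChevalleyStructure.E6Min.Checks2 Cfsg.Agent.H125.Hall.E6
  Cfsg.Agent.H125.Hall
open scoped Matrix

section alg

variable {K : Type*} [Field K]

/-- the image of a `2 × 2`-matrix in the algebra spanned by `N_r N_{-r}`, `N_{-r} N_r`, `N_r`, `N_{-r}` -/
def Th (r : ℕ) (A : Matrix (Fin 2) (Fin 2) K) : Matrix I27 I27 K :=
  A 0 0 • (Nm K r * Nm K (71 - r)) + A 1 1 • (Nm K (71 - r) * Nm K r) + A 0 1 • Nm K r + A 1 0 • Nm K (71 - r)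

theorem Th_mul {r : ℕ} (hr : r < 72) (A B : Matrix (Fin 2) (Fin 2) K) : Th r A * Th r B = Th r (A * B) := by
  have hr' : 71 - r < 72 := by omega
  have h1 : Nm K r * Nm K r = 0 := Nm_sq hr
  have h1' : Nm K (71 - r) * Nm K (71 - r) = 0 := Nm_sq hr'
  have h2 : Nm K r * Nm K (71 - r) * Nm K r = Nm K r := Nm_mul_opp_mul hr
  have h2' : Nm K (71 - r) * Nm K r * Nm K (71 - r) = Nm K (71 - r) := by
    have := Nm_mul_opp_mul (F := K) hr'
    rwa [opp_opp hr] at this
  unfold Th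
  generalize Nm K r = N at *
  generalize Nm K (71 - r) = M at *
  have h3 : N * (M * N) = N := by rw [← mul_assoc, h2]
  have h3' : M * (N * M) = M := by rw [← mul_assoc, h2']
  have h4 : N * (N * M) = 0 := by rw [← mul_assoc, h1, zero_mul]
  have h4' : M * (M * N) = 0 := by rw [← mul_assoc, h1', zero_mul]
  have h5 : N * M * M = 0 := by rw [mul_assoc, h1', mul_zero]
  have h5' : M * N * N = 0 := by rw [mul_assoc, h1, mul_zero]
  have h6 : N * M * (N * M) = N * M := by rw [← mul_assoc, h2]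
  have h6' : M * N * (M * N) = M * N := by rw [← mul_assoc, h2']
  have h7 : N * M * (M * N) = 0 := by rw [← mul_assoc, h5, zero_mul]
  have h7' : M * N * (N * M) = 0 := by rw [← mul_assoc, h5', zero_mul]
  simp only [Matrix.mul_apply, Fin.sum_univ_two, add_mul, mul_add, smul_mul_assoc, mul_smul_comm, h1, h1', h2, h2',
    h3, h3', h4, h4', h5, h5', h6, h6', h7, h7', smul_zero, add_smul, mul_smul, add_zero, zero_add]
  module

theorem Th_add (r : ℕ) (A B : Matrix (Fin 2) (Fin 2) K) : Th r (A + B) = Th r A + Th r B := by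
  simp only [Th, Matrix.add_apply, add_smul]
  abel

theorem Th_smul (r : ℕ) (t : K) (A : Matrix (Fin 2) (Fin 2) K) : Th r (t • A) = t • Th r A := by
  simp only [Th, Matrix.smul_apply, smul_eq_mul, mul_smul, smul_add]

theorem Th_sub (r : ℕ) (A B : Matrix (Fin 2) (Fin 2) K) : Th r (A - B) = Th r A - Th r B := by
  simp only [Th, Matrix.sub_apply, sub_smul]
  abel

theorem Th_one (r : ℕ) : Th r (1 : Matrix (Fin 2) (Fin 2) K) = Nm K r * Nm K (71 - r) + Nm K (71 - r) * Nm K r := by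
  simp [Th]

theorem Ph_eq (k : Fin 4) (A : Matrix (Fin 2) (Fin 2) K) : Ph k A = 1 - Th (bI k) 1 + Th (bI k) A := by
  rw [Th_one]
  simp only [Ph, Th, sub_smul, one_smul]
  abel

theorem bI_lt (k : Fin 4) : bI k < 72 := by fin_cases k <;> decide

theorem Th_mul_Ph (k : Fin 4) (A B : Matrix (Fin 2) (Fin 2) K) : Th (bI k) A * Ph k B = Th (bI k) (A * B) := by
  rw [Ph_eq, mul_add, mul_sub, mul_one, Th_mul (bI_lt k), Th_mul (bI_lt k), mul_one, sub_self, zero_add]

theorem Ph_mul (k : Fin 4) (A B : Matrix (Fin 2) (Fin 2) K) : Ph k A * Ph k B = Ph k (A * B) := by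
  have h1 : (1 - Th (bI k) 1 : Matrix I27 I27 K) * Ph k B = 1 - Th (bI k) 1 := by
    rw [sub_mul, one_mul, Th_mul_Ph, one_mul, Ph_eq]
    abel
  rw [Ph_eq k A, add_mul, h1, Th_mul_Ph, ← Ph_eq]

theorem Ph_one (k : Fin 4) : Ph k (1 : Matrix (Fin 2) (Fin 2) K) = 1 := by
  rw [Ph_eq]
  abel

/-! ### the factor `D` -/

/-- conjugation by `diag(1,-1)` -/
def sg2 (A : Matrix (Fin 2) (Fin 2) K) : Matrix (Fin 2) (Fin 2) K := !![A 0 0, -A 0 1; -A 1 0, A 1 1]

theorem anti_Ph {D : Matrix I27 I27 K} {k : Fin 4} (h1 : D * Nm K (bI k) = -(Nm K (bI k) * D))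
    (h2 : D * Nm K (71 - bI k) = -(Nm K (71 - bI k) * D)) (A : Matrix (Fin 2) (Fin 2) K) :
    D * Ph k A = Ph k (sg2 A) * D := by
  have e1 : D * (Nm K (bI k) * Nm K (71 - bI k)) = Nm K (bI k) * Nm K (71 - bI k) * D := by
    rw [← mul_assoc, h1, neg_mul, mul_assoc, h2, mul_neg, neg_neg, mul_assoc]
  have e2 : D * (Nm K (71 - bI k) * Nm K (bI k)) = Nm K (71 - bI k) * Nm K (bI k) * D := by
    rw [← mul_assoc, h2, neg_mul, mul_assoc, h1, mul_neg, neg_neg, mul_assoc]
  simp only [Ph, sg2, Matrix.of_apply, Matrix.cons_val', Matrix.cons_val_zero, Matrix.cons_val_one,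
    Matrix.cons_val_fin_one, mul_add, add_mul, mul_one, one_mul, Matrix.mul_smul, Matrix.smul_mul, e1, e2, h1, h2,
    smul_neg, neg_smul, neg_mul]

theorem comm_Ph {D : Matrix I27 I27 K} {k : Fin 4} (h1 : D * Nm K (bI k) = Nm K (bI k) * D)
    (h2 : D * Nm K (71 - bI k) = Nm K (71 - bI k) * D) (A : Matrix (Fin 2) (Fin 2) K) :
    D * Ph k A = Ph k A * D := by
  have e1 : D * (Nm K (bI k) * Nm K (71 - bI k)) = Nm K (bI k) * Nm K (71 - bI k) * D := by
    rw [← mul_assoc, h1, mul_assoc, h2, mul_assoc]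
  have e2 : D * (Nm K (71 - bI k) * Nm K (bI k)) = Nm K (71 - bI k) * Nm K (bI k) * D := by
    rw [← mul_assoc, h2, mul_assoc, h1, mul_assoc]
  simp only [Ph, mul_add, add_mul, mul_one, one_mul, Matrix.mul_smul, Matrix.smul_mul, e1, e2, h1, h2]

theorem kN_frame : ∀ k l : Fin 4, k ≠ l → (kN (bI k) (bI l) = 127 ∧ bI l + bI k ≠ 71) ∧
    (kN (bI k) (71 - bI l) = 127 ∧ 71 - bI l + bI k ≠ 71) ∧
    (kN (71 - bI k) (bI l) = 127 ∧ bI l + (71 - bI k) ≠ 71) ∧
    (kN (71 - bI k) (71 - bI l) = 127 ∧ 71 - bI l + (71 - bI k) ≠ 71) := by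
  decide +kernel

theorem Ph_comm_Ph {k l : Fin 4} (h : k ≠ l) (A B : Matrix (Fin 2) (Fin 2) K) :
    Ph k A * Ph l B = Ph l B * Ph k A := by
  obtain ⟨⟨a1, a2⟩, ⟨b1, b2⟩, ⟨c1, c2⟩, d1, d2⟩ := kN_frame k l h
  have hk := bI_lt k
  have hl := bI_lt l
  have e1 := Nm_comm_of_none (F := K) hk hl a2 a1
  have e2 := Nm_comm_of_none (F := K) hk (show 71 - bI l < 72 by omega) b2 b1
  have e3 := Nm_comm_of_none (F := K) (show 71 - bI k < 72 by omega) hl c2 c1
  have e4 := Nm_comm_of_none (F := K) (show 71 - bI k < 72 by omega) (show 71 - bI l < 72 by omega) d2 d1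
  exact comm_Ph (comm_Ph e1.symm e3.symm A).symm (comm_Ph e2.symm e4.symm A).symm B

/-! ### the element `y` -/

/-- the matrix `X` -/
def XX (s : K) : Matrix (Fin 2) (Fin 2) K := !![s / 2, -(s / 2); -(s / 2), -(s / 2)]

/-- the matrix `J` -/
def JJ (K : Type*) [Field K] : Matrix (Fin 2) (Fin 2) K := !![0, -1; 1, 0]

theorem XX_det {s : K} (hs : s * s = -2) (h2 : (2 : K) ≠ 0) : (XX s).det = 1 := by
  rw [XX, Matrix.det_fin_two_of]
  field_simp
  linear_combination -2 * hs

theorem XX_sg {s : K} (hs : s * s = -2) (h2 : (2 : K) ≠ 0) : XX s * sg2 (XX s) = JJ K := by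
  ext i j
  fin_cases i <;> fin_cases j <;>
    simp [XX, sg2, JJ, Matrix.mul_apply, Fin.sum_univ_two] <;> field_simp <;>
    first | linear_combination hs | linear_combination 2 * hs | linear_combination -2 * hs

/-- the data of the element: its matrix -/
theorem y_sq {s : K} (hs : s * s = -2) (h2 : (2 : K) ≠ 0) {k : Fin 4} {D : Matrix I27 I27 K} (hD : D * D = 1)
    (h1 : D * Nm K (bI k) = -(Nm K (bI k) * D)) (h1' : D * Nm K (71 - bI k) = -(Nm K (71 - bI k) * D)) :
    Ph k (XX s) * D * (Ph k (XX s) * D) = Ph k (JJ K) := by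
  rw [mul_assoc, ← mul_assoc D, anti_Ph h1 h1', mul_assoc, hD, mul_one, Ph_mul, XX_sg hs h2]

theorem JJ_sq : JJ K * JJ K = -1 := by
  ext i j
  fin_cases i <;> fin_cases j <;> simp [JJ, Matrix.mul_apply, Fin.sum_univ_two]

/-- the diagonal part -/
theorem Th_diag {r : ℕ} (hr : r < 72) (a b : K) : Th r (!![a, 0; 0, b] : Matrix (Fin 2) (Fin 2) K) =
    Matrix.diagonal fun x => a * ((indN r (code x) : ℤ) : K) + b * ((indN (71 - r) (code x) : ℤ) : K) := by
  unfold Th
  rw [Nm_mul_opp hr, Nm_opp_mul hr]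
  ext x y
  simp only [Matrix.of_apply, Matrix.cons_val', Matrix.cons_val_zero, Matrix.cons_val_one,
    Matrix.cons_val_fin_one, zero_smul, add_zero, Matrix.add_apply, Matrix.smul_apply, Matrix.diagonal_apply,
    smul_eq_mul]
  by_cases hxy : x = y
  · subst hxy
    simp only [if_true, ind, Matrix.zero_apply, add_zero]
  · simp [hxy]

/-- the polynomial -/
noncomputable def PP (t : K) : Polynomial K :=
  (Polynomial.X ^ 2 - 1) * (Polynomial.X ^ 2 - Polynomial.C t * Polynomial.X - 1)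

theorem PP_ne (t : K) : PP t ≠ 0 := by
  have h1 : (Polynomial.X ^ 2 - 1 : Polynomial K).Monic := by monicity!
  have h2 : (Polynomial.X ^ 2 - Polynomial.C t * Polynomial.X - 1 : Polynomial K).Monic := by monicity!
  exact (h1.mul h2).ne_zero

theorem PP_deg (t : K) : (PP t).natDegree ≤ 4 := by
  unfold PP
  compute_degree

theorem aeval_PP (t : K) (y : Matrix I27 I27 K) : Polynomial.aeval y (PP t) = (y * y - 1) * (y * y - t • y - 1) := by
  unfold PP
  simp only [map_mul, map_sub, map_pow, Polynomial.aeval_X, Polynomial.aeval_C, map_one, pow_two,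
    Algebra.algebraMap_eq_smul_one, smul_mul_assoc, one_mul]

theorem aeval_mulVecLin (y : Matrix I27 I27 K) (P : Polynomial K) :
    Polynomial.aeval y.mulVecLin P = (Polynomial.aeval y P).mulVecLin := by
  have h := Polynomial.aeval_algHom_apply
    ((Matrix.toLinAlgEquiv' : Matrix I27 I27 K ≃ₐ[K] ((I27 → K) →ₗ[K] (I27 → K))).toAlgHom) y P
  exact h

/-- `P(y) = -2 θ(J) Δ` -/
theorem PP_y {s : K} (hs : s * s = -2) (h2 : (2 : K) ≠ 0) {k : Fin 4} {D : Matrix I27 I27 K} (hD : D * D = 1)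
    (h1 : D * Nm K (bI k) = -(Nm K (bI k) * D)) (h1' : D * Nm K (71 - bI k) = -(Nm K (71 - bI k) * D)) (c : K) :
    Polynomial.aeval (Ph k (XX s) * D) (PP (c * s)) =
      (-2 : K) • (Th (bI k) (JJ K) * (Th (bI k) 1 - c • (Th (bI k) !![1, 0; 0, -1] * D))) := by
  have hr := bI_lt k
  rw [aeval_PP, y_sq hs h2 hD h1 h1']
  have e1 : Ph k (JJ K) - 1 = Th (bI k) !![-1, -1; 1, -1] := by
    rw [Ph_eq]
    have : (!![-1, -1; 1, -1] : Matrix (Fin 2) (Fin 2) K) = JJ K - 1 := by
      ext i j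
      fin_cases i <;> fin_cases j <;> simp [JJ]
    rw [this, Th_sub]
    abel
  have e2 : Ph k (JJ K) - (c * s) • (Ph k (XX s) * D) - 1 =
      Th (bI k) !![-1, -1; 1, -1] - (c * s) • (Ph k (XX s) * D) := by
    rw [← e1]
    abel
  rw [e1, e2, mul_sub, Th_mul hr, mul_smul_comm, ← mul_assoc, Th_mul_Ph]
  have e3 : (!![-1, -1; 1, -1] * !![-1, -1; 1, -1] : Matrix (Fin 2) (Fin 2) K) = (-2 : K) • JJ K := by
    ext i j
    fin_cases i <;> fin_cases j <;> simp [JJ, Matrix.mul_apply, Fin.sum_univ_two] <;> ring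
  have e4 : (!![-1, -1; 1, -1] : Matrix (Fin 2) (Fin 2) K) * XX s = s • (JJ K * !![1, 0; 0, -1]) := by
    ext i j
    fin_cases i <;> fin_cases j <;> simp [JJ, XX, Matrix.mul_apply, Fin.sum_univ_two] <;> field_simp <;> ring
  rw [e3, e4, Th_smul, Th_smul, mul_sub, Th_mul hr, mul_one, mul_smul_comm, ← mul_assoc, Th_mul hr, smul_mul_assoc,
    smul_smul, smul_sub, smul_smul]
  congr 2
  linear_combination c * hs

/-- elements of the group -/
theorem coe_U (k : Fin 4) {A : Matrix (Fin 2) (Fin 2) K} (hA : A.det = 1) (h10 : A 1 0 ≠ 0) :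
    ((zU (bI k) ((A 0 0 - 1) / A 1 0) * zU (71 - bI k) (A 1 0) * zU (bI k) ((A 1 1 - 1) / A 1 0) : GL I27 K) :
      Matrix I27 I27 K) = Ph k A := by
  have hr := bI_lt k
  have e1 : ∀ t : K, ((zU (bI k) t : GL I27 K) : Matrix I27 I27 K) = Ph k !![1, t; 0, 1] := by
    intro t
    rw [coe_zU hr, zM_def]
    simp [Ph]
  have e2 : ∀ t : K, ((zU (71 - bI k) t : GL I27 K) : Matrix I27 I27 K) = Ph k !![1, 0; t, 1] := by
    intro t
    rw [coe_zU (by omega), zM_def]
    simp [Ph]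
  rw [Units.val_mul, Units.val_mul, e1, e2, e1, Ph_mul, Ph_mul]
  congr 1
  rw [Matrix.det_fin_two] at hA
  ext i j
  fin_cases i <;> fin_cases j <;> simp [Matrix.mul_apply, Fin.sum_univ_two] <;> field_simp <;>
    first | ring1 | linear_combination -hA | linear_combination hA

theorem conj_Ph {A B : Matrix (Fin 2) (Fin 2) K} (hA : A.det = 1) (k : Fin 4) :
    Ph k A * Ph k B = Ph k (A * B * A.adjugate) * Ph k A := by
  rw [Ph_mul, Ph_mul, mul_assoc (A * B), Matrix.adjugate_mul, hA, one_smul, mul_one]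

theorem sg2_det (A : Matrix (Fin 2) (Fin 2) K) : (sg2 A).det = A.det := by
  rw [sg2, Matrix.det_fin_two_of, Matrix.det_fin_two]
  ring

end alg

/-! ### tests -/

/-- the exponents of `D` -/
def eE (k : Fin 4) (j : ℕ) : ℤ := if k.val < 2 then lbN j 0 + lbN j 4 + lbN j 5 else lbN j 1 + lbN j 4

/-- the sign of `D` -/
def ep (k : Fin 4) (j : ℕ) : ℤ := if eE k j % 2 == 0 then 1 else -1

/-- the sign of `k` -/
def cS (k : Fin 4) : ℤ := if k.val = 1 then 1 else -1

/-- the exceptional indices -/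
def ex1 (k : Fin 4) : ℕ := ![7, 7, 9, 9] k
/-- the exceptional indices -/
def ex2 (k : Fin 4) : ℕ := ![11, 24, 21, 10] k

/-- test: `D` anticommutes with `N_r` -/
def achk (k : Fin 4) (r : ℕ) : Bool := allLt 27 fun j => (sgN r j == 0) || (ep k j == - ep k (srN r j))

/-- test: `D` commutes with `N_r` -/
def bchk (k : Fin 4) (r : ℕ) : Bool := allLt 27 fun j => (sgN r j == 0) || (ep k j == ep k (srN r j))

/-- test: the support of `Δ` -/
def xchk (k : Fin 4) : Bool := allLt 27 fun j => (j == ex1 k) || (j == ex2 k) ||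
  (indN (bI k) j * (1 - cS k * ep k j) + indN (71 - bI k) j * (1 + cS k * ep k j) == 0)

theorem chk_all : ∀ k l : Fin 4, ((achk k (bI l) = true ∧ achk k (71 - bI l) = true) ∨
    (bchk k (bI l) = true ∧ bchk k (71 - bI l) = true ∧ k ≠ l)) ∧ xchk k = true := by
  decide +kernel

section final

variable {K : Type*} [Field K]

variable (K) in
/-- the element `D` -/
def DD (k : Fin 4) : GL I27 K :=
  if k.val < 2 then hU 0 (-1) * hU 4 (-1) * hU 5 (-1) else hU 1 (-1) * hU 4 (-1)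

theorem DD_mem (k : Fin 4) : DD K k ∈ Zgrp K := by
  unfold DD
  split_ifs
  · exact mul_mem (mul_mem (hU_mem _ _) (hU_mem _ _)) (hU_mem _ _)
  · exact mul_mem (hU_mem _ _) (hU_mem _ _)

theorem neg_one_zpow_eq (m : ℤ) : (-1 : K) ^ m = (((if m % 2 == 0 then (1 : ℤ) else -1) : ℤ) : K) := by
  by_cases h : m % 2 = 0
  · rw [if_pos (by simpa using h), Even.neg_one_zpow (Int.even_iff.2 h)]
    simp
  · rw [if_neg (by simpa using h), Odd.neg_one_zpow (Int.odd_iff.2 (by omega))]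
    simp

theorem coe_DD (k : Fin 4) : ((DD K k : GL I27 K) : Matrix I27 I27 K) =
    Matrix.diagonal fun x => ((ep k (code x) : ℤ) : K) := by
  have h0 : (-1 : K) ≠ 0 := by simp
  unfold DD ep eE
  split_ifs with h
  · rw [Units.val_mul, Units.val_mul, coe_hU (by norm_num) h0, coe_hU (by norm_num) h0, coe_hU (by norm_num) h0,
      Matrix.diagonal_mul_diagonal, Matrix.diagonal_mul_diagonal]
    congr 1
    funext x
    rw [← zpow_add₀ h0, ← zpow_add₀ h0, neg_one_zpow_eq]
    rfl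
  · rw [Units.val_mul, coe_hU (by norm_num) h0, coe_hU (by norm_num) h0, Matrix.diagonal_mul_diagonal]
    congr 1
    funext x
    rw [← zpow_add₀ h0, neg_one_zpow_eq]
    rfl

theorem DD_sq (k : Fin 4) : ((DD K k : GL I27 K) : Matrix I27 I27 K) * ((DD K k : GL I27 K) : Matrix I27 I27 K) = 1 := by
  rw [coe_DD, Matrix.diagonal_mul_diagonal, ← Matrix.diagonal_one]
  congr 1
  funext x
  unfold ep
  split_ifs <;> simp

theorem DD_anti {k : Fin 4} {r : ℕ} (hr : r < 72) (h : achk k r = true) :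
    ((DD K k : GL I27 K) : Matrix I27 I27 K) * Nm K r = -(Nm K r * ((DD K k : GL I27 K) : Matrix I27 I27 K)) := by
  rw [coe_DD]
  ext x y
  rw [Matrix.neg_apply, Matrix.diagonal_mul, Matrix.mul_diagonal, Nm_apply]
  have h1 := allLt_spec h (code x) (code_lt x)
  simp only [Bool.or_eq_true, beq_iff_eq] at h1
  rcases h1 with h1 | h1
  · have h2 : sg r x = 0 := h1
    rw [h2]; simp
  · by_cases hy : y = sr r x
    · subst hy
      rw [if_pos rfl, code_sr hr, h1]
      push_cast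
      ring
    · rw [if_neg hy]; simp

theorem DD_comm {k : Fin 4} {r : ℕ} (hr : r < 72) (h : bchk k r = true) :
    ((DD K k : GL I27 K) : Matrix I27 I27 K) * Nm K r = Nm K r * ((DD K k : GL I27 K) : Matrix I27 I27 K) := by
  rw [coe_DD]
  ext x y
  rw [Matrix.diagonal_mul, Matrix.mul_diagonal, Nm_apply]
  have h1 := allLt_spec h (code x) (code_lt x)
  simp only [Bool.or_eq_true, beq_iff_eq] at h1
  rcases h1 with h1 | h1
  · have h2 : sg r x = 0 := h1
    rw [h2]; simp
  · by_cases hy : y = sr r x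
    · subst hy
      rw [if_pos rfl, code_sr hr, h1]
      ring
    · rw [if_neg hy]; simp

/-- the rank -/
theorem rank_le {M : Matrix I27 I27 K} {δ : I27 → K} {a b : I27} (h : ∀ x, x ≠ a → x ≠ b → δ x = 0) (t : K) :
    Module.finrank K (LinearMap.range (t • (M * Matrix.diagonal δ)).mulVecLin) ≤ 2 := by
  classical
  set f : Fin 2 → (I27 → K) := ![(t • M).mulVecLin (Pi.single a (δ a)), (t • M).mulVecLin (Pi.single b (δ b))] with hf
  have hle : LinearMap.range (t • (M * Matrix.diagonal δ)).mulVecLin ≤ Submodule.span K (Set.range f) := by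
    rintro _ ⟨v, rfl⟩
    have h1 : (t • (M * Matrix.diagonal δ)).mulVecLin v = (t • M).mulVecLin ((Matrix.diagonal δ).mulVec v) := by
      rw [Matrix.mulVecLin_apply, Matrix.mulVecLin_apply, Matrix.mulVec_mulVec, Matrix.smul_mul]
    rw [h1]
    have h2 : (Matrix.diagonal δ).mulVec v = v a • Pi.single a (δ a) + (if a = b then 0 else v b) • Pi.single b (δ b) := by
      funext x
      rw [Matrix.mulVec_diagonal, Pi.add_apply, Pi.smul_apply, Pi.smul_apply, smul_eq_mul, smul_eq_mul]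
      by_cases hxa : x = a
      · subst hxa
        rw [Pi.single_eq_same]
        by_cases hab : x = b
        · rw [if_pos hab]; ring
        · rw [if_neg hab, Pi.single_eq_of_ne hab]; ring
      · rw [Pi.single_eq_of_ne hxa]
        by_cases hxb : x = b
        · subst hxb
          rw [Pi.single_eq_same, if_neg (fun h => hxa h.symm)]; ring
        · rw [Pi.single_eq_of_ne hxb, h x hxa hxb]; ring
    rw [h2, map_add, map_smul, map_smul]
    exact Submodule.add_mem _ (Submodule.smul_mem _ _ (Submodule.subset_span ⟨0, rfl⟩))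
      (Submodule.smul_mem _ _ (Submodule.subset_span ⟨1, rfl⟩))
  exact (Submodule.finrank_mono hle).trans ((finrank_range_le_card f).trans (by simp))

/-- the elements `y` -/
theorem exists_y {s : K} (hs : s * s = -2) (h2 : (2 : K) ≠ 0) (k : Fin 4) :
    ∃ y ∈ Zgrp K, Nrm (⊤ : Subfield K) id y ∧ (y : Matrix I27 I27 K) ^ 4 = Ph k (-1) ∧
      ∃ P : Polynomial K, P ≠ 0 ∧ P.natDegree ≤ 4 ∧
        Module.finrank K (LinearMap.range (Polynomial.aeval ((y : Matrix I27 I27 K).mulVecLin) P)) ≤ 2 := by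
  have hs0 : s ≠ 0 := by
    rintro rfl
    rw [mul_zero] at hs
    exact h2 (by linear_combination hs)
  have hk := bI_lt k
  obtain ⟨hkk, hx⟩ := chk_all k k
  have hkk : achk k (bI k) = true ∧ achk k (71 - bI k) = true := by
    rcases hkk with h | h
    · exact h
    · exact absurd rfl h.2.2
  have hD := DD_sq (K := K) k
  have h1 := DD_anti (K := K) hk hkk.1
  have h1' := DD_anti (K := K) (show 71 - bI k < 72 by omega) hkk.2
  have hXd := XX_det hs h2
  have hX10 : (XX s) 1 0 ≠ 0 := by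
    simp only [XX, Matrix.of_apply, Matrix.cons_val', Matrix.cons_val_zero, Matrix.cons_val_one,
      Matrix.cons_val_fin_one]
    exact neg_ne_zero.2 (div_ne_zero hs0 h2)
  set y : GL I27 K := zU (bI k) ((XX s 0 0 - 1) / XX s 1 0) * zU (71 - bI k) (XX s 1 0) *
    zU (bI k) ((XX s 1 1 - 1) / XX s 1 0) * DD K k with hy
  have hyc : (y : Matrix I27 I27 K) = Ph k (XX s) * ((DD K k : GL I27 K) : Matrix I27 I27 K) := by
    rw [hy, Units.val_mul, coe_U k hXd hX10]
  refine ⟨y, ?_, ?_, ?_, PP (((cS k : ℤ) : K) * s), PP_ne _, PP_deg _, ?_⟩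
  · exact mul_mem (mul_mem (mul_mem (zU_mem _ _) (zU_mem _ _)) (zU_mem _ _)) (DD_mem k)
  · intro l A hA
    rw [hyc]
    by_cases hl : l = k
    · subst hl
      refine ⟨XX s * sg2 A * (XX s).adjugate, ⟨?_, fun i j => Subfield.mem_top _⟩, ?_⟩
      · rw [Matrix.det_mul, Matrix.det_mul, sg2_det, hA.1, Matrix.det_adjugate, hXd]
        simp
      · rw [mul_assoc, anti_Ph h1 h1', ← mul_assoc, conj_Ph hXd, mul_assoc]
        rfl
    · have hc : ∀ B, SlIn (⊤ : Subfield K) B → ∃ A', SlIn (⊤ : Subfield K) A' ∧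
          ((DD K k : GL I27 K) : Matrix I27 I27 K) * Ph l B = Ph l A' * ((DD K k : GL I27 K) : Matrix I27 I27 K) := by
        intro B hB
        rcases (chk_all k l).1 with h | h
        · refine ⟨sg2 B, ⟨by rw [sg2_det, hB.1], fun i j => Subfield.mem_top _⟩, ?_⟩
          exact anti_Ph (DD_anti (bI_lt l) h.1) (DD_anti (by omega) h.2) B
        · exact ⟨B, hB, comm_Ph (DD_comm (bI_lt l) h.1) (DD_comm (by omega) h.2.1) B⟩
      obtain ⟨A', hA', h3⟩ := hc A hA
      refine ⟨A', hA', ?_⟩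
      rw [mul_assoc, h3, ← mul_assoc, Ph_comm_Ph (fun h => hl h.symm), mul_assoc]
      rfl
  · have h4 : (y : Matrix I27 I27 K) ^ 4 = (y : Matrix I27 I27 K) * y * ((y : Matrix I27 I27 K) * y) := by
      rw [pow_succ, pow_succ, pow_succ, pow_one, mul_assoc, mul_assoc]
    rw [h4, hyc, y_sq hs h2 hD h1 h1', Ph_mul, JJ_sq]
  · rw [aeval_mulVecLin, hyc, PP_y hs h2 hD h1 h1', coe_DD]
    have e1 : Th (bI k) 1 - ((cS k : ℤ) : K) • (Th (bI k) !![1, 0; 0, -1] *
        Matrix.diagonal fun x => ((ep k (code x) : ℤ) : K)) = Matrix.diagonal fun x =>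
        ((indN (bI k) (code x) * (1 - cS k * ep k (code x)) +
          indN (71 - bI k) (code x) * (1 + cS k * ep k (code x)) : ℤ) : K) := by
      have e2 : (1 : Matrix (Fin 2) (Fin 2) K) = !![1, 0; 0, 1] := by
        ext i j
        fin_cases i <;> fin_cases j <;> simp
      rw [e2, Th_diag hk, Th_diag hk, Matrix.diagonal_mul_diagonal, ← Matrix.diagonal_smul, Matrix.diagonal_sub]
      congr 1
      funext x
      simp only [Pi.smul_apply, smul_eq_mul]
      push_cast
      ring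
    rw [e1]
    refine rank_le (a := dec (ex1 k)) (b := dec (ex2 k)) ?_ (-2)
    intro x hxa hxb
    have h3 := allLt_spec hx (code x) (code_lt x)
    simp only [Bool.or_eq_true, beq_iff_eq] at h3
    rcases h3 with (h3 | h3) | h3
    · exact absurd (by rw [← h3, dec_code]) hxa
    · exact absurd (by rw [← h3, dec_code]) hxb
    · rw [h3]; simp

/-- the statement of `coreRow_c` -/
def StC : Prop := ∀ {K : Type} [Field K] [Finite K] {p : ℕ} [Fact p.Prime] [CharP K p] (_ : p ≠ 2)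
    {G : Subgroup (GL I27 K)} (_ : G ≤ Zgrp K) {k0 : Subfield K} (_ : FrIn G k0)
    (_ : ∀ k : Fin 4, ∃ y ∈ G, Nrm k0 id y ∧ (y : Matrix I27 I27 K) ^ 4 = Ph k (-1) ∧
      ∃ P : Polynomial K, P ≠ 0 ∧ P.natDegree ≤ 4 ∧
        Module.finrank K (LinearMap.range (Polynomial.aeval ((y : Matrix I27 I27 K).mulVecLin) P)) ≤ 2),
    CoreRow p ↥G

/-- **E-8** -/
theorem coreRow_e6_three_of (hC : StC) {F : Type} [Field F] [Fintype F] {p : ℕ} [Fact p.Prime] [CharP F p]
    (h8 : Fintype.card F % 8 = 3) : CoreRow p (Zgrp F) := by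
  obtain ⟨n, -, hn⟩ := FiniteField.card F p
  have hp2 : p ≠ 2 := by
    rintro rfl
    have : 2 ∣ Fintype.card F := by rw [hn]; exact dvd_pow_self 2 n.ne_zero
    omega
  have h2 : (2 : F) ≠ 0 := by
    intro h
    have h3 : ((2 : ℕ) : F) = 0 := by exact_mod_cast h
    rw [CharP.cast_eq_zero_iff F p] at h3
    exact hp2 ((Nat.prime_dvd_prime_iff_eq Fact.out Nat.prime_two).1 h3)
  have hsq : IsSquare (-2 : F) := by
    rw [FiniteField.isSquare_neg_two_iff]
    omega
  obtain ⟨s, hs⟩ := hsq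
  exact hC hp2 (G := Zgrp F) le_rfl (k0 := ⊤) (fun l t _ => ⟨zU_mem _ _, zU_mem _ _⟩)
    (fun k => exists_y hs.symm h2 k)

end final

end Cfsg.Agent.H541.Hall.E6Three
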